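import Cfsg.Agent.W8.I
import Cfsg.Agent.S2475
import Cfsg.Agent.S2476
import Cfsg.Agent.Cls.Spec3
import Cfsg.Agent.Cls.Spec5
import Cfsg.Agent.CIT.Spec
import Cfsg.Agent.Classical.SmallIso
import Cfsg.Agent.Chev.Types

/-! Known groups all of whose elements have order at most `8`. -/

set_option autoImplicit false
set_option linter.unusedSectionVars false

namespace CF.W8.F

open Subgroup Cfsg CF.Loc CF.W7
open scoped commutatorElement MatrixGroups

variable {G : Type*} [Group G] [Finite G] (h : W8 G) {F : Type} [Field F] [Fintype F]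
include h

theorem le8 {H : Type*} [Group H] (e : G ≃* H) {n : ℕ} (k : ∃ a : H, orderOf a = n) : n ≤ 8 :=
  let ⟨a, o⟩ := k
  o ▸ h.map (f := e.toMonoidHom) e.surjective a

theorem pr {r : ℕ} (p : r.Prime) (l : 7 < r) (d : r ∣ Nat.card G) : False :=
  absurd (h.prime_le (K := ⊤) p (by rwa [card_top])) (by omega)

theorem p11 (d : 11 ∣ Nat.card G) : False := pr h (by norm_num) (by decide) d

theorem p13 (d : 13 ∣ Nat.card G) : False := pr h (by norm_num) (by decide) d

theorem sol (a : ¬ 5 ∣ Nat.card G) (b : ¬ 7 ∣ Nat.card G) : Group.IsSolvable G :=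
  have := h.sol (K := ⊤) ⟨by rwa [card_top], by rwa [card_top]⟩
  Group.isSolvable_of_surjective (f := (⊤ : Subgroup G).subtype) fun x => ⟨⟨x, trivial⟩, rfl⟩

theorem l2 (ns : ¬ Group.IsSolvable G) (e : G ≃* PSL(2, F)) : Cn G := by
  have c := Classical.card_PSL_two (F := F)
  rw [← Nat.card_congr e.toEquiv] at c
  have q1 := Fintype.one_lt_card (α := F)
  obtain ⟨p, _, n, hp, q⟩ := FiniteField.card' F
  have := Fact.mk hp
  have u : ∀ a b : ℕ, a.Prime → b.Prime → a ∣ Fintype.card F → b ∣ Fintype.card F → a = b := fun a b pa pb da db =>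
    ((Nat.prime_dvd_prime_iff_eq pa hp).1 (pa.dvd_of_dvd_pow (q ▸ da))).trans
      ((Nat.prime_dvd_prime_iff_eq pb hp).1 (pb.dvd_of_dvd_pow (q ▸ db))).symm
  have u2 := u 2 3 Nat.prime_two Nat.prime_three
  have u3 := u 3 5 Nat.prime_three Nat.prime_five
  have k4 := fun c => (Classical.PSL2_four_equiv (F := F) (Nat.card_eq_fintype_card.trans c)).map e.trans
  have k5 := fun c => (Classical.PSL2_five_equiv (F := F) (Nat.card_eq_fintype_card.trans c)).map e.trans
  have k9 := fun c => (Classical.PSL2_nine_equiv (F := F) (Nat.card_eq_fintype_card.trans c)).map e.trans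
  have a : ¬ 11 ∣ Nat.card G := p11 h
  have b : ¬ 13 ∣ Nat.card G := p13 h
  by_cases l : 4 ≤ Fintype.card F
  · have k := le8 h e (n := (Fintype.card F + 1) / Nat.gcd 2 (Fintype.card F - 1))
      ((Set.ext_iff.1 (Agent.S2475.result p l) _).2 (.inr (.inr dvd_rfl)))
    have g := Nat.gcd_le_left (Fintype.card F - 1) two_pos
    have l2 : Fintype.card F ≤ 17 := by
      have := (Nat.div_le_iff_le_mul_add_pred (Nat.gcd_pos_of_pos_left _ two_pos)).1 k
      omega
    clear q u
    generalize Fintype.card F = x at *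
    interval_cases x <;> norm_num at c <;> first
      | exact absurd k (by decide) | exact .inl (k4 rfl) | exact .inl (k5 rfl) | exact .inr (.inl (k9 rfl))
      | exact .inr (.inr (.inr (.inl (by omega))))
  · refine (ns (sol h ?_ ?_)).elim <;> clear q u <;> generalize Fintype.card F = x at * <;>
      interval_cases x <;> norm_num at c <;> omega

theorem l3 (e : G ≃* PSL(3, F)) : Cn G := by
  have c := Classical.card_PSL_fin (F := F) 3 (by decide)
  rw [← Nat.card_congr e.toEquiv, Fin.prod_univ_three] at c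
  have q1 := Fintype.one_lt_card (α := F)
  obtain ⟨p, _, n, hp, -⟩ := FiniteField.card' F
  have := Fact.mk hp
  have k := le8 h e (n := (Fintype.card F ^ 2 + Fintype.card F + 1) / Nat.gcd 3 (Fintype.card F - 1))
    ((Set.ext_iff.1 (Agent.S2476.result p) _).2 (.inl dvd_rfl))
  have g := Nat.gcd_le_left (Fintype.card F - 1) three_pos
  have l2 : Fintype.card F ≤ 4 := by
    have := (Nat.div_le_iff_le_mul_add_pred (Nat.gcd_pos_of_pos_left _ three_pos)).1 k
    by_contra l
    have : 5 * 5 ≤ Fintype.card F ^ 2 := by nlinarith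
    omega
  have k4 : Fintype.card F = 4 → Cn G := fun c => .inr (.inr (.inr (.inr ⟨F, _, _, c, ⟨e⟩⟩)))
  generalize Fintype.card F = x at *
  interval_cases x
  · norm_num at c
    exact .inr (.inr (.inr (.inl c)))
  exacts [absurd k (by decide), k4 rfl]

theorem u3 {q : ℕ} (l : 3 ≤ q) (c : Fintype.card F = q ^ 2) (e : G ≃* PSU 3 F q) : False := by
  obtain ⟨p, _, n, hp, -⟩ := FiniteField.card' F
  have := Fact.mk hp
  have c' := Nat.card_eq_fintype_card.trans c
  have s := (Cls.rep_PSU (K := AlgebraicClosure F) p c' (n := 3) (by omega)).spec_three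
    (Cls.ta_ac F p) (Cls.pq_neg p c') (t := q + 1) (by omega) rfl
  have k1 := le8 h e ((s _).2 (.inr (.inl dvd_rfl)))
  have k2 := le8 h e ((s _).2 (.inr (.inr (.inl dvd_rfl))))
  have k3 := le8 h e ((s _).2 (.inr (.inr (.inr (.inl dvd_rfl)))))
  obtain ⟨j, d⟩ := Cls.exists_pow_of_card_sq p c'
  replace d : p ∣ q := d ▸ dvd_pow_self p j.succ_ne_zero
  have := Nat.le_of_dvd (by omega) d
  have := hp.two_le
  have : q ≤ 7 := by omega
  clear s c c' e
  interval_cases q <;> norm_num at k1 <;> interval_cases p <;> revert k3 d <;> decide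

theorem nine {H A : Type*} [Group H] [Finite H] [CommGroup A] {P : Multiset (A × ℕ) → Prop} (r : Cls.Rep H 3 P)
    (k : P {((1 : A), 4)}) (e : G ≃* H) : False :=
  absurd (le8 h e (r.exists_orderOf k (r := 9) fun _ hk =>
    (by decide : 9 ∣ 3 ^ Nat.clog 3 4).trans (hk.2 (1, 4) (by simp)))) (by decide)

omit h in
theorem ch3 {n : ℕ} (c : Fintype.card F = 3 ^ n) : CharP F 3 :=
  have := Fact.mk Nat.prime_three
  charP_of_card_eq_prime_pow c

theorem u4 (c : Fintype.card F = 9) (e : G ≃* PSU 4 F 3) : False :=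
  have := Fact.mk Nat.prime_three
  have := ch3 (n := 2) c
  have := Finite.of_equiv _ e.toEquiv
  nine h (Cls.rep_PSU (K := AlgebraicClosure F) 3 (q := 3) (Nat.card_eq_fintype_card.trans c) (n := 4) (by omega))
    (Cls.sa_unip four_pos) e

theorem l4 (c : Fintype.card F = 3) (e : G ≃* PSL(4, F)) : False :=
  have := Fact.mk Nat.prime_three
  have := ch3 (n := 1) c
  have := Finite.of_equiv _ e.toEquiv
  nine h (Cls.rep_PSL (K := AlgebraicClosure F) 3 4) (Cls.sa_unip four_pos) e

theorem sp3 (c : Fintype.card F = 3) (e : G ≃* PSp 2 F) : False :=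
  have := Fact.mk Nat.prime_three
  have := ch3 (n := 1) c
  have := Finite.of_equiv _ e.toEquiv
  nine h (Cls.rep_PSp (K := AlgebraicClosure F) 3 two_pos) (Cls.spA_unip two_pos) e

theorem sp4 (c : 4 ≤ Fintype.card F) (e : G ≃* PSp 2 F) : False := by
  obtain ⟨p, _, n, hp, -⟩ := FiniteField.card' F
  have := Fact.mk hp
  obtain ⟨x, o, k⟩ := (Cls.ta_ac F p).exists_torus (Cls.pq_card (F := F) p) two_pos (ε := -1) (.inr rfl)
  obtain ⟨a, ha⟩ := (Cls.rep_PSp (F := F) (K := AlgebraicClosure F) p two_pos).ofJ _ (Cls.spA_sJ k one_pos)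
  obtain ⟨⟨_, hc⟩, -⟩ := (ha _).1 dvd_rfl
  have := Finite.of_equiv _ e.toEquiv
  have := Nat.le_of_dvd (Nat.mul_pos two_pos (orderOf_pos a)) (Cls.dvd_two_mul_of_sJ two_pos hc)
  have := le8 h e ⟨a, rfl⟩
  rw [Nat.card_eq_fintype_card] at o
  have : 4 * 4 ≤ (Fintype.card F : ℤ) ^ 2 := by nlinarith
  omega

theorem sz {m : ℕ} (l : 1 ≤ m) (c : Fintype.card F = 2 ^ (2 * m + 1)) (e : G ≃* Lie.Sz F (2 ^ (m + 1))) : False := by
  have := le8 h e (CIT.exists_order_sz l c (.inl rfl))
  have := Nat.pow_le_pow_right two_pos (show 3 ≤ 2 * m + 1 by omega)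
  exact absurd (this.trans_lt (lt_add_one _ |>.trans_le' (Nat.le_add_right _ _) |>.trans_le ‹_›)) (by decide)

theorem g2 (c : Fintype.card F = 3) (e : G ≃* Lie.chevG2.group F) : False :=
  p13 h (by rw [Nat.card_congr e.toEquiv, Chev.cardG2 F (Nat.card_eq_fintype_card.trans c)]; decide)

theorem alt {n : ℕ} (l : 8 ≤ n) (e : G ≃* alternatingGroup (Fin n)) : False := by
  obtain ⟨g, k⟩ := (Equiv.Perm.exists_with_cycleType_iff (Fin n) (m := {3, 5})).2 ⟨by simpa using l, by simp⟩
  have := le8 h e ⟨⟨g, by rw [Equiv.Perm.mem_alternatingGroup, Equiv.Perm.sign_of_cycleType, k]; decide⟩, rfl⟩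
  rw [orderOf_mk, ← Equiv.Perm.lcm_cycleType, k] at this
  exact absurd this (by decide)

end CF.W8.F
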