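import Cfsg.Agent.W8.XA
import Cfsg.Agent.Schur.L34
import Cfsg.Agent.S0243
import Cfsg.Agent.S2476

/-! The group `L₃(4)` has no suitable module. -/

set_option autoImplicit false
set_option maxRecDepth 100000

namespace CF.W8

open Subgroup Cfsg CF.Loc CF.Comp CF.Schur
open scoped MatrixGroups

namespace Xp

/-- the certificate -/
def C34 : Rl := [([1], 5, [[], [3], [5], [8], [13], [14], [5, 1], [8, 1], [9, 1], [10, 1], [7, 2], [12, 2], [13, 2], [14, 2], [5, 3], [7, 4], [13, 4], [4, 5], [14, 7], [4, 8], [4, 14], [3, 1, 1], [4, 1, 1], [5, 4, 1], [7, 4, 1], [5, 5, 1], [9, 8, 1], [5, 2, 2], [7, 3, 2], [12, 3, 2], [5, 4, 2], [8, 6, 3], [6, 8, 3]]),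
  ([5], 5, [[3], [4], [1, 1], [3, 1], [4, 1], [2, 2], [4, 2], [7, 2], [8, 2], [13, 2], [14, 2], [11, 3], [12, 3], [12, 4], [1, 5], [2, 6], [1, 8], [2, 10], [3, 10], [2, 13], [3, 14], [13, 3, 1], [14, 3, 1], [10, 6, 1], [9, 7, 1], [3, 7, 2], [12, 7, 2], [3, 9, 2], [8, 5, 3]]),
  ([3], 5, [[5], [8], [10], [13], [8, 1], [9, 1], [2, 2], [9, 2], [13, 2], [6, 3], [9, 3], [14, 3], [2, 4], [12, 4], [13, 4], [6, 6], [1, 7], [1, 13], [1, 14], [10, 1, 1], [5, 3, 1], [12, 3, 1], [12, 4, 1], [1, 6, 1], [5, 10, 1], [9, 4, 2]]),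
  ([1, 8], 5, [[], [2], [3], [4], [5], [6], [8], [14], [8, 1], [3, 2], [6, 2], [10, 2], [11, 2], [14, 2], [2, 3], [9, 3], [10, 3], [11, 3], [2, 4], [9, 4], [11, 4], [4, 5], [8, 5], [2, 6], [14, 7], [3, 10], [2, 14], [8, 1, 1], [9, 1, 1], [10, 1, 1], [2, 3, 1], [11, 3, 1], [4, 4, 1], [5, 4, 1]]),
  ([5, 7], 5, [[], [1], [2], [3], [4], [1, 1], [3, 1], [4, 1], [5, 1], [9, 1], [2, 2], [3, 2], [4, 2], [5, 2], [10, 2], [11, 2], [13, 2], [2, 3], [6, 3], [7, 3], [9, 3], [10, 3], [12, 3], [11, 4], [2, 5], [1, 6], [1, 7]]),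
  ([4, 6], 7, [[], [1], [3], [6], [6, 1], [7, 1]]),
  ([5, 12], 5, [[1], [2], [3], [1, 1], [4, 1], [7, 1]]),
  ([4, 14], 5, [[], [5]])]

theorem c34 : chk (lapp L34.U0 L34.U1) 21 5 (ck (lapp L34.U0 L34.U1) 21 5 [7, 11]) C34 = true := by decide +kernel

end Xp

theorem xl34 {G : Type*} [Group G] [Finite G] {M Q : Subgroup G} (h : W8 G) {F : Type} [Field F] [Fintype F]
    (hF : Fintype.card F = 4) {f : M →* PSL(3, F)} (e : Ex M Q f) : Q = ⊥ := by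
  have hc := Agent.S0243.result hF 3 (by norm_num)
  simp [Fin.prod_univ_three] at hc
  obtain ⟨el, hT⟩ := exists_ok_four hF
  obtain ⟨_, _, D, g, h2, h3⟩ := L34.linU.hasReps_PSL hT L34.memU
  have x := L34.chU.exact h2 h3 (H := ⊤) (fun _ => trivial) (Pc.card_top_eq (by omega)).le
  refine Xp.kill2 h e x.reps (by decide) (by decide) x.faithful (isPGroup_of_forall_coprime fun a m c => ?_) Xp.c34
  have o : orderOf (ev _ [7, 11]) = 2 := orderOf_eq_prime ((ev_wpow _ _ 2).symm.trans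
    (x.reps.eq_one_of_idW (k := 5) (by decide) x.faithful trivial (by decide +kernel)))
    (x.reps.ne_of_sameW (k := 5) (w := []) (by decide) (by decide +kernel))
  have := (exists_omega_four hF).1
  have := (Agent.S2476.result (F := F) 2).le ⟨_, (Commute.orderOf_mul_eq_mul_orderOf_of_coprime
    (mem_centralizer_singleton_iff.1 m) (by rwa [o])).trans (congrArg _ o)⟩
  rw [hF] at this
  have l := h.sub M |>.map e.sj a
  exact orderOf_eq_one_iff.1 ((by decide : ∀ n ≤ 8, n.Coprime 2 → (n * 2 ∣ 7 ∨ n * 2 ∣ 5 ∨ n * 2 ∣ 3 ∨ n * 2 ∣ 2 ∨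
    2 = 2 ∧ n * 2 ∣ 4) → n = 1) _ l c this)

end CF.W8
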