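import Cfsg.Agent.W8.XB
import Cfsg.Agent.W8.YA
import Cfsg.Agent.W8.L2
import Cfsg.Agent.S2119
import Cfsg.Agent.S0495
import Cfsg.Agent.Bt.Xc

/-! The types of the subgroups of characteristic `2`. -/

set_option autoImplicit false
set_option linter.unusedSectionVars false

namespace CF.W8

open Subgroup Cfsg CF.Loc CF.W7
open scoped commutatorElement MatrixGroups

universe u

section
variable {G : Type*} [Group G] [Finite G] {A B D E F K L M N P Q R S T U V W X : Subgroup G} {a b c g k t u v w x y z : G}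

namespace Ex
variable {Y Y' : Type*} [Group Y] [Group Y'] {f : M →* Y} (e : Ex M Q f)
include e

theorem comp (φ : Y ≃* Y') : Ex M Q (φ.toMonoidHom.comp f) :=
  ⟨φ.surjective.comp e.sj, e.k ▸ Subgroup.ext fun _ => φ.map_eq_one_iff, e.q, e.l⟩

theorem nab (k : ¬ ⁅M, M⁆ ≤ Q) : ¬ IsMulCommutative Y := fun i => k (commutator_le.2 fun a ha b hb =>
  (e.mem ⁅(⟨a, ha⟩ : M), ⟨b, hb⟩⁆).1 ((map_commutatorElement f _ _).trans
    (commutatorElement_eq_one_iff_mul_comm.2 (i.is_comm.comm _ _))))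

theorem simple (k : ¬ ⁅M, M⁆ ≤ Q) (s : ∀ K, Q ≤ K → K ≤ M → M ≤ 𝐍(K) → K = Q ∨ K = M) : IsSimpleGroup Y :=
  haveI : Nontrivial Y := not_subsingleton_iff_nontrivial.1 fun _ => e.nab k ⟨⟨fun _ _ => Subsingleton.elim _ _⟩⟩
  ⟨fun H i => haveI := i.comap f
    (s (e.pre H) (e.le_pre H) (e.pre_le H) (le_normalizer_map_subtype _)).imp
      (fun q => eq_bot_iff.2 fun t ht => let ⟨g, a⟩ := e.sj t; a ▸ (e.mem g).2 (q.le ((e.mem_pre g).2 (a ▸ ht))))
      fun q => eq_top_iff.2 fun t _ => let ⟨g, a⟩ := e.sj t; a ▸ (e.mem_pre g).1 (q.ge g.2)⟩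

end Ex

namespace W8
variable (h : W8 G)
include h

theorem dich (o : P57 x) (ch : IsCharP 2 N) (o2 : 𝐎[2](N) ≠ ⊥) (m : x ∈ N) : N ≤ 𝐍(𝐎[2](N) ⊔ zpowers x) ∨
    ∃ L, 𝐎[2](N) ≤ L ∧ L ≤ N ∧ N ≤ 𝐍(L) ∧ ¬ ⁅L, L⁆ ≤ 𝐎[2](N) ∧ ∀ K, 𝐎[2](N) ≤ K → K ≤ L → L ≤ 𝐍(K) → K = 𝐎[2](N) ∨ K = L := by
  have := Fact.mk o.pr
  have nQ := le_normalizer_pCoreOf 2 N
  have pQ := o.nd2 (isPGroup_pCoreOf 2 N)
  obtain ⟨L, ⟨a, b, c, d⟩, mn⟩ := exists_minimal_of_wellFoundedLT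
    (fun L => 𝐎[2](N) ≤ L ∧ L ≤ N ∧ N ≤ 𝐍(L) ∧ x ∈ L) ⟨N, pCoreOf_le 2 N, le_rfl, le_normalizer, m⟩
  have s := h.syl o d pQ o2 (b.trans nQ)
  by_cases k : ⁅L, L⁆ ≤ 𝐎[2](N)
  · refine .inl (le_normalizer_iff_cj.2 fun g hg => ?_)
    obtain ⟨u, hu, v, hv, rfl⟩ := s.frattini (c hg)
    rw [cj_mul, cj_sup, cj_eq_self hv, cj_eq_self (nQ ((mul_mem_cancel_left (b hu)).1 hg))]
    exact (cj_eq_self (le_normalizer_of_commutator_le (sup_le a (zpowers_le.2 d)) (k.trans le_sup_left) hu)).le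
  refine .inr ⟨L, a, b, c, k, fun K k1 k2 k3 => ?_⟩
  by_cases q : orderOf x ∣ Nat.card K
  · refine .inr (k2.antisymm ?_)
    have n1 : N ≤ 𝐍(⨅ g : N, cj[(g : G)] K) := le_normalizer_iff_cj.2 fun u hu => le_iInf fun g => by
      rw [cj_le_iff, ← cj_mul]
      exact iInf_le (fun g : N => cj[(g : G)] K) ⟨u⁻¹ * g, mul_mem (inv_mem hu) g.2⟩
    have l1 : (⨅ g : N, cj[(g : G)] K) ≤ K := (iInf_le (fun g : N => cj[(g : G)] K) ⟨1, one_mem N⟩).trans (cj_one K).le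
    have a1 : 𝐎[2](N) ≤ ⨅ g : N, cj[(g : G)] K := le_iInf fun g => (cj_eq_self (nQ g.2)).ge.trans (cj_mono _ k1)
    have a2 : x ∈ ⨅ g : N, cj[(g : G)] K := mem_iInf.2 fun g => by
      refine h.mem o s (cj_le_of_mem_normalizer (c g.2) k2) ?_ (by rwa [card_cj])
      rw [← cj_normalizer]
      exact (cj_eq_self (c g.2)).ge.trans (cj_mono _ k3)
    exact (mn ⟨a1, l1.trans (k2.trans b), n1, a2⟩ (l1.trans k2)).trans l1
  · exact .inl (((h.le_O o (ch.of_normal b c) d k2 k3 q).trans (pCoreOf_le_pCoreOf_of_normal b c)).antisymm k1)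

theorem ex6 (o : orderOf x = 7) (l : K ≤ 𝐍(zpowers x)) (d : 6 ∣ Nat.card K) : ∃ g ∈ K, orderOf g = 6 := by
  obtain ⟨y, hy, oy⟩ := exists_orderOf_eq_of_dvd_card (p := 3) (H := K) (Dvd.dvd.trans (by decide) d)
  obtain ⟨t, ht, ot⟩ := exists_orderOf_eq_of_dvd_card (p := 2) (H := K) (Dvd.dvd.trans (by decide) d)
  obtain ⟨φ, hφ⟩ : ∃ φ : 𝐍(zpowers x) →* (ZMod (Nat.card (zpowers x)))ˣ, ∀ g, φ g = 1 → (g : G) ∈ 𝐂(zpowers x) :=
    ⟨(IsCyclic.mulAutMulEquiv (zpowers x)).toMonoidHom.comp (zpowers x).normalizerMonoidHom, fun g e =>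
      (normalizerMonoidHom_ker (zpowers x)).le ((IsCyclic.mulAutMulEquiv (zpowers x)).map_eq_one_iff.1 e)⟩
  have k : ∀ (p : ℕ) [Fact p.Prime] (g : 𝐍(zpowers x)), p < 7 → orderOf (g : G) = p → orderOf (φ g) = p := fun p i g p7 og =>
    orderOf_eq_prime (by rw [← map_pow, ← og, orderOf_coe, pow_orderOf_eq_one, map_one]) fun e => by
      have := h.fix1 (.inr o) (hφ g e x (mem_zpowers x)) (by rw [o, og]; exact Nat.not_dvd_of_pos_of_lt i.out.pos p7)
      exact i.out.one_lt.ne' (by rw [← og, this, orderOf_one])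
  have e := Commute.orderOf_mul_eq_mul_orderOf_of_coprime (Commute.all (φ ⟨y, l hy⟩) (φ ⟨t, l ht⟩))
  rw [k 3 _ (by decide) oy, k 2 _ (by decide) ot, ← map_mul] at e
  replace e := e (by decide)
  have := (h.sub _).ord_map φ (le_of_le_of_eq (by decide) e.symm)
  rw [e, ← orderOf_coe] at this
  exact ⟨y * t, mul_mem hy ht, this⟩

theorem no6 (o : orderOf x = 7) (o2 : 𝐎[2](N) ≠ ⊥) (m : x ∈ N) : ¬ 6 ∣ Nat.card ↥(N ⊓ 𝐍(zpowers x)) := fun d =>
  let ⟨_, a, b⟩ := h.ex6 o inf_le_right d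
  o2 (x42 h (isPGroup_pCoreOf 2 N) o b a.2 (le_normalizer_pCoreOf 2 N m) (le_normalizer_pCoreOf 2 N a.1))

theorem fr (o : P57 x) (o2 : 𝐎[2](N) ≠ ⊥) (m : x ∈ N) (n : N ≤ 𝐍(𝐎[2](N) ⊔ zpowers x)) : Fr N := ⟨x, m, o, n, fun d => by
  have := Fact.mk o.pr
  have nQ := le_normalizer_pCoreOf 2 N
  have s := h.syl o m (o.nd2 (isPGroup_pCoreOf 2 N)) o2 nQ
  have l := sup_le (pCoreOf_le 2 N) (zpowers_le.2 m)
  have l1 := le_inf (zpowers_le.2 m) le_normalizer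
  have e := (s.mono le_sup_right l).frattini_sup l n
  rw [sup_assoc, sup_of_le_right l1] at e
  rw [← congrArg (relIndex _) e, relIndex_sup_of_le_normalizer (inf_le_left.trans nQ)] at d
  replace d := d.trans (relIndex_dvd_card _ _)
  refine o.elim (fun o5 => ?_) fun o7 => h.no6 o7 o2 m d
  obtain ⟨-, -, e1⟩ := h.idx o s m le_rfl le_normalizer
  rw [← card_mul_relIndex l1, Nat.card_zpowers, o5] at d
  have := Nat.le_of_dvd (by omega) e1
  rw [relIndex_self, o5] at this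
  have : (zpowers x).relIndex (N ⊓ 𝐍(zpowers x)) ≠ 0 := index_ne_zero_of_finite
  omega⟩

end W8

end

theorem ty_of {G : Type u} [Group G] [Finite G] (h : W8 G) (ih : IH G) : Ty G := fun N ch o2 => by
  refine or_iff_not_imp_left.2 fun t => ?_
  obtain ⟨x, m, o⟩ := exists_p57 t
  refine (h.dich o ch o2 m).imp (h.fr o o2 m) fun ⟨L, a, b, c, k, s⟩ => ?_
  clear o m x
  have pQ := isPGroup_pCoreOf 2 N
  have nQ := le_normalizer_pCoreOf 2 N
  haveI : (𝐎[2](N).subgroupOf N).Normal := normal_subgroupOf_of_le_normalizer nQ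
  let π := QuotientGroup.mk' (𝐎[2](N).subgroupOf N)
  let ρ := π.comp (inclusion b)
  have e : Ex L 𝐎[2](N) ρ.rangeRestrict := ⟨ρ.rangeRestrict_surjective, Subgroup.ext fun g =>
    Subtype.ext_iff.trans (QuotientGroup.eq_one_iff (N := 𝐎[2](N).subgroupOf N) (inclusion b g)), pQ, a⟩
  have := e.simple k s
  have cL := card_mul_relIndex a
  have lt : Nat.card ρ.range < Nat.card G := by
    have := (one_lt_card_iff_ne_bot _).2 o2
    have := Nat.le_of_dvd Nat.card_pos (card_subgroup_dvd_card L)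
    have : 0 < Nat.card ρ.range := Nat.card_pos
    rw [e.idx] at cL
    nlinarith
  have ix : ∀ (p r : ℕ) [Fact p.Prime], p = 5 ∨ p = 7 → Nat.card ρ.range = p * r → ∃ x ∈ L, orderOf x = p ∧
      IsSyl p (zpowers x) N ∧ (zpowers x).relIndex (L ⊓ 𝐍(zpowers x)) = r % p ∧ L.relIndex N * (r % p) ∣ p - 1 := fun p r _ hp q => by
    obtain ⟨x, m, rfl⟩ := exists_orderOf_eq_of_dvd_card (p := p) (H := L) (by rw [← cL, e.idx, q]; exact (dvd_mul_right p r).mul_left _)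
    have s := h.syl hp (b m) (P57.nd2 hp pQ) o2 nQ
    exact ⟨x, m, rfl, s, h.idx2 hp s m b c a (nQ (b m)) (P57.nd2 hp pQ) (e.idx.trans q)⟩
  have one : ∀ {X : Type} [Group X], (ρ.range ≃* X) → L.relIndex N = 1 → Ep N X := fun φ i => by
    obtain rfl := b.antisymm (relIndex_eq_one.1 i)
    exact ⟨_, e.comp φ⟩
  have two : ∀ {r : ℕ}, L.relIndex N * r ∣ 2 * r → 0 < r → L.relIndex N = 1 ∨ L.relIndex N = 2 := fun d r0 =>
    (Nat.dvd_prime Nat.prime_two).1 (Nat.dvd_of_mul_dvd_mul_right r0 d)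
  have : Fact (Nat.Prime 5) := ⟨Nat.prime_five⟩
  have : Fact (Nat.Prime 7) := ⟨by decide⟩
  obtain ⟨⟨φ⟩⟩ | ⟨⟨φ⟩⟩ | ⟨⟨φ⟩⟩ | q | ⟨F, _, _, hF, ⟨φ⟩⟩ := ih _ (e.nab k) lt ((h.sub L).map e.sj)
  · have q : Nat.card ρ.range = 5 * 12 := by rw [Nat.card_congr φ.toEquiv, nat_card_alternatingGroup, Nat.card_fin]; decide
    obtain ⟨x, m, o, s, -, d⟩ := ix 5 12 (.inl rfl) q
    refine (two d two_pos).imp (one φ) fun i => .inl ?_
    haveI : (L.subgroupOf N).Normal := normal_subgroupOf_of_le_normalizer c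
    haveI : ρ.range.Normal := by
      rw [MonoidHom.range_comp, inclusion_range]
      exact Normal.map inferInstance π (QuotientGroup.mk'_surjective _)
    let ψ := MulEquiv.ofBijective _ (Agent.S2119.result 5 (by decide) (by decide))
    let f : N →* S5 := (((MulAut.congr φ).trans ψ.symm).toMonoidHom.comp MulAut.conjNormal).comp π
    have ek : f.ker = 𝐎[2](N).subgroupOf N := le_antisymm (fun g hg => h.le_O (.inl o) ch (b m) (map_subtype_le f.ker)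
      (le_normalizer_map_subtype _) (fun d => ?_) ⟨g, hg, rfl⟩) fun g hg => by
        rw [MonoidHom.mem_ker, MonoidHom.comp_apply, show π g = 1 from (QuotientGroup.eq_one_iff g).2 hg, map_one]
    · refine ⟨f, MonoidHom.range_eq_top.1 (eq_top_of_card_eq _ ?_), ek, pQ, pCoreOf_le 2 N⟩
      rw [← index_ker, ek, ← relIndex, ← relIndex_mul_relIndex _ _ _ a b, i, e.idx, q, Nat.card_perm, Nat.card_fin]
      decide
    obtain ⟨g, hg, rfl⟩ := h.mem (.inl o) (o ▸ s) (map_subtype_le f.ker) (le_normalizer_map_subtype _) d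
    have c1 : (MulAut.conjNormal (π g) : MulAut ρ.range) = 1 := ((MulAut.congr φ).trans ψ.symm).map_eq_one_iff.1 hg
    have c2 : ρ.rangeRestrict ⟨g, m⟩ ∈ center ρ.range := mem_center_iff.2 fun y => Subtype.ext
      (mul_inv_eq_iff_eq_mul.1 (congrArg (fun ψ : MulAut ρ.range => (ψ y).1) c1)).symm
    refine P57.nd2 (.inl o) pQ (orderOf_dvd_natCard _ ((e.mem ⟨g, m⟩).1 (((inferInstance : (center ρ.range).Normal).eq_bot_or_eq_top.resolve_right
      fun q => e.nab k ⟨⟨fun u v => (mem_center_iff.1 (q.ge (mem_top v)) u)⟩⟩).le c2)))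
  · obtain ⟨-, -, -, -, -, d⟩ := ix 5 72 (.inl rfl) (by rw [Nat.card_congr φ.toEquiv, nat_card_alternatingGroup, Nat.card_fin]; decide)
    exact .inr (.inr (.inl (one φ ((two d two_pos).resolve_right fun i => o2 (xa62 h (e.comp φ) b c nQ i)))))
  · exact (o2 (xa7 h (e.comp φ))).elim
  · obtain ⟨x, m, o, s, i3, d⟩ := ix 7 24 (.inr rfl) q
    have : Fact (Nat.Prime 7) := ⟨by decide⟩
    have := Bt.simple_SL3
    obtain ⟨φ⟩ := Agent.S0495.result q (ZMod.card 7)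
    obtain ⟨φ'⟩ := Agent.S0495.result Bt.card_SL3 (ZMod.card 7)
    refine .inr (.inr (.inr (one (φ.trans φ'.symm) ((two d (by decide)).resolve_right fun i => h.no6 o o2 (b m) ?_))))
    rw [← (s.mono (zpowers_le.2 m) b).frattini_sup b c, relIndex_sup_of_le_normalizer (inf_le_left.trans c)] at i
    exact Nat.Coprime.mul_dvd_of_dvd_of_dvd (by decide : Nat.Coprime 2 3) (i ▸ relIndex_dvd_card _ _)
      (((show 3 = _ from i3.symm).dvd.trans (relIndex_dvd_card _ _)).trans (card_dvd_of_le (inf_le_inf_right _ b)))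
  · exact (o2 (xl34 h hF (e.comp φ))).elim

end CF.W8
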