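import Cfsg.Agent.W8.I
import Cfsg.Agent.Perm.ONS
import Cfsg.Agent.Recog.Mazurov
import Cfsg.Agent.CIT.Spec
import Cfsg.Agent.S2476

/-! Groups with element orders `1, …, 8`: reduction to the simple groups. -/

set_option autoImplicit false
set_option linter.unusedSectionVars false

namespace CF.W8

open Subgroup Cfsg CF.Loc CF.W7
open scoped commutatorElement MatrixGroups

universe u

namespace Z
variable {G : Type*} [Group G] [Finite G] {B N V T : Subgroup G} {g x y : G}

/-- the two simple groups of order divisible by `35` -/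
def Sx (N : Subgroup G) : Prop := Nonempty (N ≃* A7) ∨
  ∃ (F : Type) (_ : Field F) (_ : Fintype F), Fintype.card F = 4 ∧ Nonempty (N ≃* PSL(3, F))

theorem c7 : Nat.card A7 = 2520 := by rw [nat_card_alternatingGroup, Nat.card_fin]; decide

theorem Sx.card (s : Sx N) : Nat.card N = 2520 ∨ Nat.card N = 20160 :=
  s.imp (fun ⟨e⟩ => (Nat.card_congr e.toEquiv).trans c7)
    fun ⟨_, _, _, c, ⟨e⟩⟩ => (Nat.card_congr e.toEquiv).trans (CIT.card_psl34 c)

variable (h : W8 G)
include h

theorem pg (o : P57 x) (c : ∀ g ∈ T, x * g = g * x) : IsPGroup (orderOf x) T := isPGroup_iff_forall.2 fun g hg => ⟨1, by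
  by_cases d : orderOf x ∣ orderOf g
  · rw [pow_one, ← h.eq_of_dvd d o.five, pow_orderOf_eq_one]
  · rw [h.fix1 o (c g hg) d, one_pow]⟩

theorem sol57 [V.Normal] (o : P57 x) (m : x ∈ V) (v : IsPGroup (orderOf x) V) : Group.IsSolvable G := by_contra fun ns => by
  have := Fact.mk o.pr
  have := Fact.mk Nat.prime_two
  obtain ⟨t, ot⟩ := exists_prime_orderOf_dvd_card' (G := G) 2 (by_contra fun k => ns (Hyp.isSolvable_of_odd
    (Nat.odd_iff.2 (by omega))))
  have f : ∀ t, orderOf t = 2 → V ⊓ centralizer {t} = ⊥ := fun t ot => eq_bot_iff.2 fun g hg => by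
    obtain ⟨k, e⟩ := orderOf_eq_pow_of_mem v hg.1
    have := h.mul_le (mem_centralizer_singleton_iff.1 hg.2) (by
      rw [e, ot]; exact (o.elim (· ▸ by decide) (· ▸ by decide) : (orderOf x).Coprime 2).pow_left _)
    rw [ot, e] at this
    have l := o.five
    rw [mem_bot, ← orderOf_eq_one_iff, e]
    obtain _ | k := k
    · rfl
    · have := Nat.le_self_pow (k.add_one_ne_zero) (orderOf x)
      omega
  have i : ∀ t, orderOf t = 2 → ∀ k ∈ V, t * k * t⁻¹ = k⁻¹ := fun t ot k hk =>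
    Coprime.fpf_conj_eq_inv (le_normalizer_of_normal (mem_top t)) (f t ot) (ot ▸ pow_orderOf_eq_one t ▸ one_mem _) hk
  have := isSolvable_of_isPGroup (pg h (T := 𝐂(V)) o fun g hg => hg x m)
  let π := QuotientGroup.mk' 𝐂(V)
  have t1 : π t ≠ 1 := fun e => o.x1 (le_bot_iff.1 (zpowers_le.2 ((f t ot).le ⟨m, mem_centralizer_singleton_iff.2
    ((QuotientGroup.eq_one_iff t).1 e x m)⟩)))
  have s := (h.map (QuotientGroup.mk'_surjective 𝐂(V))).sol ((h.map (QuotientGroup.mk'_surjective 𝐂(V))).t23z (g := π t)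
    (by rw [← map_mul, ← pow_two, ← ot, pow_orderOf_eq_one, map_one]) t1)
  have e : Hz (π t) = ⊤ := eq_top_iff.2 fun g _ => by
    obtain ⟨g, rfl⟩ := QuotientGroup.mk'_surjective _ g
    refine mem_H (QuotientGroup.eq.2 fun k hk => ?_)
    calc _ = (g * t)⁻¹ * (g * (t * k * t⁻¹) * g⁻¹) * (t * g) := by group
      _ = (g * t)⁻¹ * (t * (g * k * g⁻¹) * t⁻¹) * (t * g) := by
        rw [i t ot k hk, i t ot _ (‹V.Normal›.conj_mem k hk g), conj_inv]
      _ = _ := by group
  rw [e] at s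
  have := Group.isSolvable_of_surjective (f := (⊤ : Subgroup (G ⧸ 𝐂(V))).subtype) fun g => ⟨⟨g, trivial⟩, rfl⟩
  exact ns (Solv.isSolvable_of_normal_of_quotient 𝐂(V))

theorem three {r : ℕ} [V.Normal] (v : IsPGroup 3 V) (l : V ≤ N) (e : V.relIndex N = 7 * r) (r3 : r % 7 = 3) : V = ⊥ :=
  by_contra fun v0 => by
  have := Fact.mk Nat.prime_three
  have : Fact (Nat.Prime 7) := ⟨by decide⟩
  obtain ⟨x, m, ox⟩ := exists_orderOf_eq_of_dvd_card ((Dvd.intro _ e.symm).trans (relIndex_dvd_card _ _))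
  have o : P57 x := .inr ox
  have k := o.nd (.inr rfl) v
  have n : ∀ L, L ≤ 𝐍(V) := fun _ => le_normalizer_of_normal
  have i := (h.idx2 o (h.syl o m k v0 (n _)) m le_rfl le_normalizer l (n _ (mem_top x)) k (r := r) (ox ▸ e)).1
  rw [ox, r3] at i
  obtain ⟨y, my, oy⟩ := exists_orderOf_eq_of_dvd_card (i ▸ relIndex_dvd_card _ _)
  have := isSolvable_of_isPGroup v
  have c := Recog.le_centralizer_of_coset_pow (zpowers x) V my.2 (Coprime.SemiReg.symm fun g hg g1 => by
      have o' : P57 g := .inr ((((Nat.dvd_prime o.pr).1 (orderOf_dvd_of_mem_zpowers hg)).resolve_left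
        (mt orderOf_eq_one_iff.1 g1)).trans ox)
      exact centralizer_zpowers g ▸ h.inf o' (o'.nd (.inr rfl) (p3 oy))) (n _ (mem_top y)) (n _)
    (by rw [Nat.card_zpowers]; exact (Nat.Prime.coprime_iff_not_dvd o.pr).2 k) fun u hu => oy ▸
      h.exp3 (v.to_sup_of_normal_left (p3 oy)) (mul_mem_sup hu (mem_zpowers y))
  exact v0 (eq_bot_iff.2 fun u hu => h.fix o k hu (c (mem_zpowers x) u hu).symm)

theorem idx {r : ℕ} [N.Normal] (s : Sx N) (o : P57 x) (m : x ∈ N) (e : Nat.card N = orderOf x * r) (k : ¬ orderOf x ∣ r) :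
    N.index * (r % orderOf x) ∣ orderOf x - 1 := by
  have := Fact.mk Nat.prime_three
  have := Fact.mk o.pr
  obtain ⟨B, b⟩ := exists_isSyl 3 N
  have t : T23 (⊤ ⊓ 𝐍(B)) := .of fun g hg og => by
    obtain ⟨c, e1⟩ := h.mod og (og.nd (.inr rfl) b.isPGroup) hg.2
    obtain ⟨j, e2⟩ := b.isPGroup.exists_card_eq
    have d := b.not_dvd_relIndex
    have e3 := card_mul_relIndex b.le
    rw [e2] at e1 e3
    obtain _ | _ | _ | j := j
    · rcases s.card with e | e <;> omega
    iterate 2 rcases og with e | e <;> rw [e] at e1 <;> omega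
    have := (pow_dvd_pow 3 (by omega : 3 ≤ j + 1 + 1 + 1)).trans (Dvd.intro _ e3)
    rcases s.card with e | e <;> omega
  have i : ¬ orderOf x ∣ N.relIndex ⊤ := fun d => by
    rw [← b.frattini_sup le_top le_normalizer_of_normal, relIndex_sup_of_le_normalizer le_normalizer_of_normal] at d
    exact t.nd o (d.trans (relIndex_dvd_card _ _))
  have l := zpowers_le.2 m
  have e1 := card_mul_relIndex l
  rw [e, Nat.card_zpowers, Nat.mul_right_inj o.pr.ne_zero] at e1
  rw [← relIndex_top_right]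
  exact (h.idx2 o (isSyl_of_not_dvd_relIndex o.pz le_top fun d => (o.pr.dvd_mul.1
    (relIndex_mul_relIndex _ _ _ l le_top ▸ d)).elim (e1 ▸ k) i) m le_top le_normalizer_of_normal bot_le
    (le_normalizer_of_normal (mem_top x)) (by rw [card_bot]; exact o.pr.not_dvd_one) (by rw [relIndex_bot_left, e])).2

omit h in
theorem lift {X : Type*} [Group X] [V.Normal] {M : Subgroup (G ⧸ V)} (e : M ≃* X) :
    ∃ (N : Subgroup G) (f : N →* X), Function.Surjective f ∧ f.ker = V.subgroupOf N ∧ V ≤ N :=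
  ⟨_, e.toMonoidHom.comp ((QuotientGroup.mk' V).subgroupComap M), e.surjective.comp
    (MonoidHom.subgroupComap_surjective_of_surjective _ _ (QuotientGroup.mk'_surjective V)), Subgroup.ext fun g =>
      e.map_eq_one_iff.trans (Subtype.ext_iff.trans (QuotientGroup.eq_one_iff (g : G))), fun g hg => by
      rw [mem_comap, show QuotientGroup.mk' V g = 1 from (QuotientGroup.eq_one_iff g).2 hg]; exact one_mem _⟩

omit h in
theorem rel {X : Type*} [Group X] {f : N →* X} (s : Function.Surjective f) (k : f.ker = V.subgroupOf N) :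
    V.relIndex N = Nat.card X := by
  rw [relIndex, ← k, index_ker, MonoidHom.range_eq_top.2 s, card_top]

end Z
open Z

/-- the excluded extensions -/
def XX : Prop := ∀ (G : Type u) [Group G] [Finite G] (M Q : Subgroup G), W8 G → (∀ f : M →* A7, Ex M Q f → Q = ⊥) ∧
  ∀ (F : Type) [Field F] [Fintype F], Fintype.card F = 4 → ∀ f : M →* PSL(3, F), Ex M Q f → Q = ⊥

variable (cl : ∀ (K : Type u) [Group K] [Finite K] [IsSimpleGroup K], ¬ IsMulCommutative K → W8 K → Cn K) (xx : XX.{u})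
include cl xx

theorem Z.main (n : ℕ) : ∀ (G : Type u) [Group G] [Finite G], Nat.card G = n → W8 G → ¬ Group.IsSolvable G →
    ∀ x y : G, orderOf x = 5 → orderOf y = 7 → ∃ N : Subgroup G, N.Normal ∧ Sx N := by
  induction n using Nat.strong_induction_on with | _ n ih
  rintro G _ _ rfl h ns x y ox oy
  have : Nontrivial G := not_subsingleton_iff_nontrivial.1 fun _ => ns inferInstance
  obtain ⟨V, m⟩ := Solv.exists_isMinNormal (G := G)
  have := m.1
  by_cases s : Group.IsSolvable V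
  · obtain ⟨r, p, -, v⟩ := m.exists_isElementaryAbelian
    have := Fact.mk p
    obtain ⟨z, mz, oz⟩ := exists_orderOf_eq_of_isPGroup v m.2.1
    have l := h.prime_le p (oz ▸ V.orderOf_dvd_natCard mz)
    have r23 : r = 2 ∨ r = 3 := by_contra fun k => ns (sol57 h (x := z) (by
      have := p.two_le
      unfold P57
      interval_cases r <;> simp_all (config := { decide := true })) mz (oz ▸ v))
    have k : ∀ x : G, P57 x → orderOf (QuotientGroup.mk' V x) = orderOf x := fun x o =>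
      ((Nat.dvd_prime o.pr).1 (orderOf_map_dvd _ x)).resolve_left fun e => o.nd r23 v (V.orderOf_dvd_natCard
        ((QuotientGroup.eq_one_iff x).1 (orderOf_eq_one_iff.1 e)))
    obtain ⟨M, -, s⟩ := ih _ (Solv.card_quotient_lt m.2.1) (G ⧸ V) rfl (h.map (QuotientGroup.mk'_surjective V))
      (fun _ => ns (Solv.isSolvable_of_normal_of_quotient V)) _ _ ((k x (.inl ox)).trans ox) ((k y (.inr oy)).trans oy)
    refine absurd ?_ m.2.1
    obtain ⟨⟨e⟩⟩ | ⟨F, _, _, c, ⟨e⟩⟩ := s <;> obtain ⟨N, f, a, b, lV⟩ := lift e <;> obtain rfl | rfl := r23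
    exacts [(xx G N V h).1 f ⟨a, b, v, lV⟩, three h v lV (r := 360) ((rel a b).trans c7) rfl,
      (xx G N V h).2 F c f ⟨a, b, v, lV⟩, three h v lV (r := 2880) ((rel a b).trans (CIT.card_psl34 c)) rfl]
  obtain ⟨T, t⟩ := Perm.exists_soc m fun i => s (Group.isSolvable_of_comm i.is_comm.comm)
  have := t.simple
  have nT : ¬ Group.IsSolvable T := fun _ => t.ncomm ⟨⟨IsSimpleGroup.comm_iff_isSolvable.2 ‹_›⟩⟩
  obtain ⟨z, mz, oz⟩ := exists_p57 (mt h.sol nT)
  have := Fact.mk oz.pr
  have nr : T.Normal := normalizer_eq_top_iff.1 (eq_top_iff.2 fun g _ => (t.conj_mem_or g).resolve_right fun c =>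
    nT (isSolvable_of_isPGroup (orderOf_conj g z ▸ pg h (oz.conj g) fun u hu => (c z mz u hu).symm)))
  have d : ∀ x : G, P57 x → orderOf x ∣ Nat.card T := fun x o => by_contra fun k =>
    nT (h.nil o k (le_normalizer_of_normal (mem_top x))).sol
  have d5 := ox ▸ d x (.inl ox)
  have d7 := oy ▸ d y (.inr oy)
  refine ⟨T, nr, ?_⟩
  rcases cl T t.ncomm (h.sub T) with ⟨⟨e⟩⟩ | ⟨⟨e⟩⟩ | e | e | e
  · rw [Nat.card_congr e.toEquiv, nat_card_alternatingGroup, Nat.card_fin] at d7; exact absurd d7 (by decide)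
  · rw [Nat.card_congr e.toEquiv, nat_card_alternatingGroup, Nat.card_fin] at d7; exact absurd d7 (by decide)
  exacts [.inl e, absurd (e ▸ d5) (by decide), .inr e]

theorem fin0 {G : Type u} [Group G] [Finite G] (h : Set.range (orderOf : G → ℕ) = {k : ℕ | 1 ≤ k ∧ k ≤ 8}) :
    ∃ (N : Subgroup G) (F : Type) (_ : Field F) (_ : Fintype F), N.Normal ∧ N.index = 2 ∧ Fintype.card F = 4 ∧
      Nonempty (↥N ≃* Matrix.ProjectiveSpecialLinearGroup (Fin 3) F) := by
  have w : W8 G := fun g => (h.le ⟨g, rfl⟩).2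
  have x : ∀ k, 1 ≤ k → k ≤ 8 → ∃ g : G, orderOf g = k := fun k a b => h.ge ⟨a, b⟩
  have d : ∀ k, 1 ≤ k → k ≤ 8 → k ∣ Nat.card G := fun k a b => let ⟨g, e⟩ := x k a b; e ▸ orderOf_dvd_natCard g
  obtain ⟨a, oa⟩ := x 5 (by decide) (by decide)
  obtain ⟨b, ob⟩ := x 7 (by decide) (by decide)
  obtain ⟨N, _, s⟩ := Z.main cl xx _ G rfl w (fun _ => CIT.not_sol_of_three Nat.prime_three Nat.prime_five
    (show Nat.Prime 7 by decide) (by decide) (by decide) (by decide) (d _ (by decide) (by decide)) (d _ (by decide) (by decide))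
    (d _ (by decide) (by decide)) (fun g => by have := w g; omega) inferInstance) a b oa ob
  have : Fact (Nat.Prime 5) := ⟨Nat.prime_five⟩
  have : Fact (Nat.Prime 7) := ⟨by decide⟩
  have top : N.index = 1 → ∀ k, 1 ≤ k → k ≤ 8 → ∃ g : N, orderOf g = k := fun e k a b =>
    let ⟨g, o⟩ := x k a b; ⟨⟨g, (index_eq_one.1 e).ge trivial⟩, (orderOf_mk _ _).trans o⟩
  obtain ⟨⟨e⟩⟩ | ⟨F, _, _, c, ⟨e⟩⟩ := id s
  · have cN := (Nat.card_congr e.toEquiv).trans c7
    obtain ⟨x, m, o⟩ := exists_orderOf_eq_of_dvd_card (p := 5) (H := N) (cN ▸ by decide)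
    have := idx w s (.inl o) m (r := 504) (o ▸ cN) (o ▸ by decide)
    rw [o] at this
    obtain ⟨g, og⟩ := top (by have := Nat.le_of_dvd (by decide) this; have := N.index_ne_zero_of_finite; omega) 8
      (by decide) le_rfl
    have : orderOf (e g).1 ∣ 420 := by
      rw [← Equiv.Perm.lcm_cycleType, Multiset.lcm_dvd]
      intro k hk
      have := (Equiv.Perm.le_card_support_of_mem_cycleType hk).trans (Finset.card_le_univ _)
      have := Equiv.Perm.two_le_of_mem_cycleType hk
      rw [Fintype.card_fin] at *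
      interval_cases k <;> decide
    rw [orderOf_coe, e.orderOf_eq, og] at this
    exact absurd this (by decide)
  have cN := (Nat.card_congr e.toEquiv).trans (CIT.card_psl34 c)
  obtain ⟨x, m, o⟩ := exists_orderOf_eq_of_dvd_card (p := 7) (H := N) (cN ▸ by decide)
  have := idx w s (.inr o) m (r := 2880) (o ▸ cN) (o ▸ by decide)
  rw [o] at this
  refine ⟨N, F, _, _, ‹_›, ((Nat.dvd_prime Nat.prime_two).1 ((Nat.mul_dvd_mul_iff_right (by decide : 0 < 3)).1
    (show _ * 3 ∣ 2 * 3 from this))).resolve_left fun i => ?_, c, ⟨e⟩⟩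
  obtain ⟨g, og⟩ := top i 6 (by decide) (by decide)
  obtain ⟨p, _, n, hp, q⟩ := FiniteField.card' F
  obtain rfl := (Nat.prime_dvd_prime_iff_eq hp Nat.prime_two).1 (hp.dvd_of_dvd_pow (n := 2)
    ((dvd_pow_self p n.ne_zero).trans (q.symm.trans c).dvd))
  have := Fact.mk Nat.prime_two
  have := (Agent.S2476.result (F := F) 2).le ⟨e g, rfl⟩
  rw [e.orderOf_eq, og, c] at this
  exact absurd this (by decide)

end CF.W8
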