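import Cfsg.Agent.W8.Z1
import Cfsg.Agent.W8.XB
import Cfsg.Agent.W8.YA

/-! Groups with element orders `1, …, 8`: from the simple groups to the statement. -/

set_option autoImplicit false

namespace CF.W8

universe u

theorem fin {G : Type u} [Group G] [Finite G]
    (cl : ∀ (K : Type u) [Group K] [Finite K] [IsSimpleGroup K], ¬ IsMulCommutative K → W8 K → Cn K)
    (h : Set.range (orderOf : G → ℕ) = {k : ℕ | 1 ≤ k ∧ k ≤ 8}) :
    ∃ (N : Subgroup G) (F : Type) (_ : Field F) (_ : Fintype F), N.Normal ∧ N.index = 2 ∧ Fintype.card F = 4 ∧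
      Nonempty (↥N ≃* Matrix.ProjectiveSpecialLinearGroup (Fin 3) F) :=
  fin0 cl (fun _ _ _ _ _ w => ⟨fun _ => xa7 w, fun _ _ _ c _ => xl34 w c⟩) h

end CF.W8
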